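import Cfsg.Agent.Class.Sp4E.Star
import Cfsg.Agent.Known.PSL2Basic
import Cfsg.Agent.Class.DicksonLemma

/-! Traces of elements of `Sp₄(q)`, `q` even, and small simple subgroups. -/

set_option autoImplicit false

namespace Cfsg.Lib.Class.Sp4E

open Module Matrix Cfsg.Agent.S3639 Cfsg.Lib.Known.GL2
open scoped MatrixGroups

variable {F : Type*} [Field F]

/-- The matrix of an element of the symplectic group. -/
noncomputable def mt : SpB (B4 F) →* Matrix (Fin 4) (Fin 4) F where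
  toFun g := mat g.1
  map_one' := LinearMap.toMatrix'_id
  map_mul' _ _ := LinearMap.toMatrix'_mul _ _

theorem mt_injective : Function.Injective (mt (F := F)) := fun _ _ h =>
  Subtype.ext (LinearEquiv.toLinearMap_injective (LinearMap.toMatrix'.injective h))

theorem trace_mt (g : SpB (B4 F)) : (mt g).trace = LinearMap.trace F _ g.1.toLinearMap := by
  rw [LinearMap.trace_eq_matrix_trace F (Pi.basisFun F _), LinearMap.toMatrix_eq_toMatrix']; rfl

theorem tr_conj {g h : SpB (B4 F)} (H : IsConj g h) : (mt g).trace = (mt h).trace := by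
  obtain ⟨k, rfl⟩ := isConj_iff.1 H
  rw [map_mul, map_mul, trace_mul_cycle, ← map_mul, inv_mul_cancel, map_one, one_mul]

theorem tr_inv (g : SpB (B4 F)) : (mt g⁻¹).trace = (mt g).trace := by
  rw [← mul_one (mt g⁻¹), ← mul_J4 (mat_rel g.2), ← mul_assoc]
  change (mt g⁻¹ * mt g * _).trace = _
  rw [← map_mul, inv_mul_cancel, map_one, one_mul, trace_mul_cycle, J4_sq, one_mul, trace_transpose]
  rfl

variable [CharP F 2]

theorem tr_pow (g : SpB (B4 F)) (n : ℕ) : (mt (g ^ 2 ^ n)).trace = (mt g).trace ^ 2 ^ n := by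
  induction n with
  | zero => simp
  | succ n ih =>
    rw [pow_succ, pow_mul, pow_mul, ← ih, sq, map_mul]
    simp only [trace, diag_apply, mul_apply, Fin.sum_univ_four]
    grind

/-- The graph endomorphism of the symplectic group. -/
noncomputable def σ' : SpB (B4 F) →* SpB (B4 F) := σ.codRestrict _ σ_mem

theorem σ'_injective : Function.Injective (σ' (F := F)) :=
  (MonoidHom.injective_codRestrict _ _ _).2 σ_injective

theorem cay (g : SpB (B4 F)) : mt g ^ 4 + (mt g).trace • mt g ^ 3 + (mt (σ' g)).trace • mt g ^ 2 +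
    (mt g).trace • mt g + 1 = 0 := by
  have := cayley (mat_rel g.2)
  rw [e2_eq (mat_rel g.2), ← mat_σ] at this
  simp only [pow_succ, pow_zero, one_mul]
  exact this

theorem trace_σ'σ' (g : SpB (B4 F)) : (mt (σ' (σ' g))).trace = (mt g).trace ^ 2 := by
  rw [trace_mt g, ← e2_σ, e2_eq (mat_rel (σ_mem g))]
  exact congrArg trace (mat_σ _)

theorem zero_or_one {g : SpB (B4 F)} (h : (mt (g ^ 2)).trace = (mt g).trace) :
    (mt g).trace = 0 ∨ (mt g).trace = 1 := by
  have := tr_pow g 1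
  rw [pow_one, h] at this
  grind

theorem pow_120 {g : SpB (B4 F)} (h : IsConj g (g ^ 2)) : g ^ 120 = 1 := by
  have h1 := cay g
  have h2 : (2 : Matrix (Fin 4) (Fin 4) F) = 0 := CharTwo.two_eq_zero
  have key : ∀ n, mt g ^ n = 1 → n ∣ 120 → g ^ 120 = 1 := fun n e ⟨k, hk⟩ =>
    mt_injective (by rw [map_pow, hk, pow_mul, e, one_pow, map_one])
  rcases zero_or_one (tr_conj h).symm with e | e <;>
    rcases zero_or_one (map_pow σ' g 2 ▸ tr_conj (σ'.map_isConj h)).symm with e' | e' <;>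
    simp only [e, e', zero_smul, one_smul, add_zero] at h1 <;> generalize mt g = M at *
  · exact key 8 (by linear_combination (norm := noncomm_ring) (M ^ 4 - 1) * h1) (by decide)
  · exact key 6 (by linear_combination (norm := noncomm_ring) (M ^ 2 - 1) * h1) (by decide)
  · exact key 6 (by linear_combination (norm := noncomm_ring) (M ^ 2 + M + 1) * h1 -
      (M ^ 5 + M ^ 4 + M ^ 3 + M ^ 2 + M + 1) * h2) (by decide)
  · exact key 5 (by linear_combination (norm := noncomm_ring) (M - 1) * h1) (by decide)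

theorem tr_of_four {g : SpB (B4 F)} (h : g ^ 4 = 1) : (mt g).trace = 0 := by
  have := tr_pow g 2
  rw [show g ^ 2 ^ 2 = 1 from h, map_one, trace_one, Fintype.card_fin] at this
  exact pow_eq_zero_iff (n := 2 ^ 2) (by decide) |>.1 (by rw [← this]; grind)

theorem tr_of_three {g : SpB (B4 F)} (h : g ^ 3 = 1) : (mt g).trace = 0 ∨ (mt g).trace = 1 :=
  zero_or_one (by rw [eq_inv_of_mul_eq_one_left ((pow_succ g 2).symm.trans h), tr_inv])

theorem fpf_of_tr {g : SpB (B4 F)} (h : g ^ 3 = 1) (h1 : g ≠ 1) (h0 : (mt g).trace = 0) :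
    mt g⁻¹ + mt g + 1 = 0 := by
  have h2 := cay g
  rw [← map_pow, ← map_pow, ← map_pow, pow_succ, h, one_mul,
    eq_inv_of_mul_eq_one_left ((pow_succ g 2).symm.trans h), h0] at h2
  rcases tr_of_three (g := σ' g) (by rw [← map_pow, h, map_one]) with e | e
  · exact (h1 (mt_injective (by simpa [e, CharTwo.add_eq_zero] using h2))).elim
  · simpa [e, add_comm (mt g)] using h2

theorem tr_σ' {g : SpB (B4 F)} (h : g ^ 3 = 1) (h0 : (mt g).trace ≠ 0) :
    (mt (σ' g)).trace = 0 := by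
  have h2 := cay g
  rw [← map_pow, ← map_pow, ← map_pow, pow_succ, h, one_mul, map_one,
    (tr_of_three h).resolve_left h0] at h2
  refine (tr_of_three (g := σ' g) (by rw [← map_pow, h, map_one])).resolve_right fun e => ?_
  have h3 : mt (g ^ 2) = 0 := by
    rw [← h2, e, ← one_smul F (mt (g ^ 2))]; match_scalars <;> grind
  exact zero_ne_one (by rw [← map_one (mt (F := F)), ← h, pow_succ, map_mul, h3, zero_mul])

theorem tr_zero_of_nine {x y : SpB (B4 F)} (hx : x ^ 3 = 1) (hy : y ^ 3 = 1) (hc : Commute x y)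
    (x1 : x ≠ 1) (y1 : y ≠ 1) (h1 : x * y ≠ 1) (h2 : x ≠ y) :
    (mt x).trace = 0 ∨ (mt y).trace = 0 ∨ (mt (x * y)).trace = 0 := by
  by_contra! h
  have key : ∀ g : SpB (B4 F), g ^ 3 = 1 → g ≠ 1 → (mt g).trace ≠ 0 →
      mt (σ' g)⁻¹ + mt (σ' g) + 1 = 0 := fun g h h1 h0 =>
    fpf_of_tr (by rw [← map_pow, h, map_one]) (fun e => h1 (σ'_injective (by simpa using e)))
      (tr_σ' h h0)
  have e1 := key x hx x1 h.1
  have e2 := key y hy y1 h.2.1
  have e3 := key _ (by rw [hc.mul_pow, hx, hy, one_mul]) h1 h.2.2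
  rw [hc.eq, map_mul, _root_.mul_inv_rev, ← map_mul σ', ← hc.eq, map_mul, map_mul, map_mul] at e3
  have h2' : (2 : Matrix (Fin 4) (Fin 4) F) = 0 := CharTwo.two_eq_zero
  refine h2 (σ'_injective (mt_injective ?_))
  generalize mt (σ' x)⁻¹ = A' at *
  generalize mt (σ' y)⁻¹ = B' at *
  generalize mt (σ' x) = A at *
  generalize mt (σ' y) = B at *
  linear_combination (norm := noncomm_ring) e3 - e1 * B' + (A + 1) * e2 - (A * B + B + 1) * h2'

open Equiv Equiv.Perm in
theorem a6_pow : ∀ g : Perm (Fin 6), sign g = 1 → (g ^ 3 = 1 ∨ g ^ 4 = 1) ∨ g ^ 5 = 1 := by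
  decide +kernel

theorem a6_easy (ρ : alternatingGroup (Fin 6) →* SpB (B4 F)) {g : alternatingGroup (Fin 6)}
    (h : g.1 ^ 3 = 1 ∨ g.1 ^ 4 = 1) : (mt (ρ g)).trace ∈ fixF F 1 := by
  rcases h with h | h
  · rcases tr_of_three (g := ρ g) (by rw [← map_pow, show g ^ 3 = 1 from Subtype.ext h, map_one])
      with e | e <;> simp [e, zero_mem, one_mem]
  · simp [tr_of_four (g := ρ g) (by rw [← map_pow, show g ^ 4 = 1 from Subtype.ext h, map_one]),
      zero_mem]

open Equiv Equiv.Perm in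
theorem a6_five (ρ : alternatingGroup (Fin 6) →* SpB (B4 F)) (hρ : Function.Injective ρ)
    {g : alternatingGroup (Fin 6)} (hg : g.1 = swap 0 1 * swap 1 2 * (swap 2 3 * swap 3 4)) :
    (mt (ρ g)).trace ∈ fixF F 1 := by
  let x : alternatingGroup (Fin 6) := ⟨swap 0 1 * swap 1 2, mem_alternatingGroup.2 (by decide)⟩
  let y : alternatingGroup (Fin 6) := ⟨swap 3 4 * swap 4 5, mem_alternatingGroup.2 (by decide)⟩
  have ne : ∀ a b, a ≠ b → ρ a ≠ ρ b := fun a b h e => h (hρ e)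
  have cube : ∀ a, a ^ 3 = 1 → ρ a ^ 3 = 1 := fun a h => by rw [← map_pow, h, map_one]
  have key : ∀ k z w : alternatingGroup (Fin 6), k * z * k⁻¹ = w → w ^ 3 = 1 → w ≠ 1 →
      (g.1 * w.1) ^ 3 = 1 ∨ (g.1 * w.1) ^ 4 = 1 → (g.1 * w.1⁻¹) ^ 3 = 1 ∨ (g.1 * w.1⁻¹) ^ 4 = 1 →
      (mt (ρ z)).trace = 0 → (mt (ρ g)).trace ∈ fixF F 1 := fun k z w hw h3 h1 h4 h5 h0 => by
    have h7 := congrArg (fun M => (mt (ρ g) * M).trace) (fpf_of_tr (cube w h3)
      (map_one ρ ▸ ne w 1 h1) ((tr_conj (ρ.map_isConj (isConj_iff.2 ⟨_, hw⟩))).symm.trans h0))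
    simp only [mul_add, trace_add, mul_one, mul_zero, trace_zero, ← map_inv, ← map_mul,
      CharTwo.add_eq_zero] at h7
    exact h7 ▸ add_mem (a6_easy ρ (g := g * w⁻¹) h5) (a6_easy ρ (g := g * w) h4)
  rw [hg] at key
  rcases tr_zero_of_nine (cube x (by decide)) (cube y (by decide))
    (Commute.map (show x * y = y * x by decide) ρ) (map_one ρ ▸ ne x 1 (by decide))
    (map_one ρ ▸ ne y 1 (by decide)) (map_one ρ ▸ map_mul ρ x y ▸ ne _ 1 (by decide))
    (ne x y (by decide)) with h | h | h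
  · exact key ⟨swap 0 1 * swap 0 5, mem_alternatingGroup.2 (by decide)⟩ _ _ rfl (by decide)
      (by decide) (by decide +kernel) (by decide +kernel) h
  · exact key ⟨swap 0 1 * swap 0 3, mem_alternatingGroup.2 (by decide)⟩ _ _ rfl (by decide)
      (by decide) (by decide +kernel) (by decide +kernel) h
  · exact key 1 (x * y) _ rfl (by decide) (by decide) (by decide +kernel) (by decide +kernel)
      (map_mul ρ x y ▸ h)

open Equiv Equiv.Perm in
theorem a6_case (ρ : alternatingGroup (Fin 6) →* SpB (B4 F)) (hρ : Function.Injective ρ)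
    (g : alternatingGroup (Fin 6)) : (mt (ρ g)).trace ∈ fixF F 1 := by
  rcases eq_or_ne g.1 1 with h1 | h1
  · exact a6_easy ρ (by simp [h1])
  refine (a6_pow g.1 g.2).elim (a6_easy ρ) fun h => ?_
  haveI := Fact.mk Nat.prime_five
  have cyc : ∀ s : Perm (Fin 6), s ^ 5 = 1 → s ≠ 1 → s.IsCycle ∧ s.support.card = 5 := fun s h h1 =>
    have h2 := orderOf_eq_prime h h1
    have h3 := isCycle_of_prime_order' (h2 ▸ Nat.prime_five) (by simp [h2])
    ⟨h3, h3.orderOf ▸ h2⟩
  have h2 := cyc (swap 0 1 * swap 1 2 * (swap 2 3 * swap 3 4)) (by decide) (by decide)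
  obtain ⟨k, hk⟩ := isConj_iff.1 (h2.1.isConj (cyc _ h h1).1 (h2.2.trans (cyc _ h h1).2.symm))
  simpa using a6_five (ρ.comp (MulAut.conjNormal k).toMonoidHom)
    (hρ.comp (MulAut.conjNormal k).injective) (g := (MulAut.conjNormal k).symm g)
    (by simp [← hk, mul_assoc])

theorem not_psl2 {K : Type*} [Field K] [Fintype K] (hp : (Fintype.card K).Prime)
    (h7 : 7 ≤ Fintype.card K) {k : ℕ} (hk : Fintype.card K = 2 ^ k + 1 ∨ Fintype.card K + 1 = 2 ^ k)
    (ρ : PSL(2, K) →* SpB (B4 F)) : ¬ Function.Injective ρ := fun hρ => by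
  obtain ⟨k, rfl⟩ : ∃ j, k = j + 3 := Nat.exists_eq_add_of_le' (by
    by_contra! h
    interval_cases k <;> omega)
  obtain ⟨s, hs⟩ : IsSquare (2 : K) := FiniteField.isSquare_two_iff.2 (by
    rw [pow_add] at hk; omega)
  obtain ⟨p, _, n, hp', hn⟩ := FiniteField.card' K
  have hd : ∀ m : ℕ, (m : K) = 0 → Fintype.card K ∣ m := fun m h => by
    rw [← (Nat.prime_dvd_prime_iff_eq hp' hp).1 (hn ▸ dvd_pow_self p n.ne_zero)]
    exact (CharP.cast_eq_zero_iff K _ m).1 h
  have s0 : s ≠ 0 := fun e => absurd (Nat.le_of_dvd two_pos (hd 2 (by simp [hs, e]))) (by omega)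
  have hu : ∀ m : ℕ, slU (1 : K) ^ m = slU (m : K) := fun m => by
    induction m with
    | zero => simp [slU_zero]
    | succ m ih => rw [pow_succ, ih, Nat.cast_succ, slU_add]
  have h1 := pow_120 (g := ρ (piSL K (slU 1))) (by
    rw [← map_pow, ← map_pow, hu]
    refine (ρ.comp (piSL K)).map_isConj (isConj_iff.2 ⟨⟨!![s, 0; 0, s⁻¹], by simp [s0]⟩, ?_⟩)
    exact (conj_slU _ rfl _).trans (congrArg slU (by simp [hs, sq])))
  rw [← map_pow, ← map_pow, hu, map_eq_one_iff _ hρ, piSL_eq_one_iff] at h1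
  have := (hp.dvd_factorial (n := 5)).1 (hd 120 h1.1)
  omega

theorem not_psl3 {K : Type*} [Field K] [CharP K 2] (ρ : PSL(3, K) →* SpB (B4 F)) :
    ¬ Function.Injective ρ := fun hρ => by
  let A : SL(3, ZMod 2) := ⟨!![0, 0, 1; 1, 0, 1; 0, 1, 0], by decide⟩
  let C : SL(3, ZMod 2) := ⟨!![1, 0, 0; 0, 0, 1; 0, 1, 1], by decide⟩
  let φ := (QuotientGroup.mk' (Subgroup.center SL(3, K))).comp
    (SpecialLinearGroup.map (ZMod.castHom (dvd_refl 2) K))
  have h1 := pow_120 (g := ρ (φ A)) (by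
    rw [← map_pow, ← map_pow]
    exact (ρ.comp φ).map_isConj (isConj_iff.2 ⟨C, by decide⟩))
  rw [← map_pow, ← map_pow, show A ^ 120 = A from Subtype.ext (by decide +kernel),
    map_eq_one_iff _ hρ] at h1
  obtain ⟨r, -, hr⟩ := Matrix.SpecialLinearGroup.mem_center_iff.1 ((QuotientGroup.eq_one_iff
    (SpecialLinearGroup.map (ZMod.castHom (dvd_refl 2) K) A)).1 h1)
  have h2 : (0 : K) = ZMod.castHom (dvd_refl 2) K 1 := congrArg (· 1 0) hr
  simp at h2

end Cfsg.Lib.Class.Sp4E
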