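import Cfsg.Agent.Class.Sp4E.Inv
import Cfsg.Agent.S3639

/-! The graph endomorphism of `Sp₄(q)`, `q` even, and subgroups containing involutions `a₂`. -/

set_option autoImplicit false

namespace Cfsg.Lib.Class.Sp4E

open Module Ev Matrix Cfsg.Lie Cfsg.Agent.S3639

variable {F : Type*} [Field F]

/-- The standard form on `F⁴`. -/
noncomputable def B4 (F : Type*) [Field F] : LinearMap.BilinForm F (Fin 4 → F) :=
  Matrix.toBilin' (J4 F)

theorem B4_apply (u v : Fin 4 → F) :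
    B4 F u v = u 0 * v 3 + u 1 * v 2 + u 2 * v 1 + u 3 * v 0 := by
  simp [B4, Matrix.toBilin'_apply, J4, Fin.sum_univ_four]

theorem B4_nd : (B4 F).Nondegenerate :=
  (LinearMap.BilinForm.nondegenerate_toBilin'_iff_det_ne_zero).2 fun h => by
    simpa [h] using congrArg det (J4_sq (F := F))

/-- Four Plücker coordinates. -/
def wd (v u : Fin 4 → F) : Fin 4 → F :=
  ![v 0 * u 1 + v 1 * u 0, v 0 * u 2 + v 2 * u 0, v 1 * u 3 + v 3 * u 1, v 2 * u 3 + v 3 * u 2]

/-- The matrix of an automorphism. -/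
noncomputable abbrev mat (g : (Fin 4 → F) ≃ₗ[F] (Fin 4 → F)) : Matrix (Fin 4) (Fin 4) F :=
  LinearMap.toMatrix' g.toLinearMap

theorem mat_mulVec (g : (Fin 4 → F) ≃ₗ[F] (Fin 4 → F)) (v : Fin 4 → F) : mat g *ᵥ v = g v := by
  simp

theorem mat_rel {g : (Fin 4 → F) ≃ₗ[F] (Fin 4 → F)} (hg : g ∈ SpB (B4 F)) :
    (mat g)ᵀ * J4 F * mat g = J4 F := by
  apply Matrix.toBilin'.injective
  rw [← Matrix.toBilin'_comp]
  exact LinearMap.ext₂ fun u v => by simpa [B4] using mem_SpB.1 hg u v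

theorem e2_comm (A B : Matrix (Fin 4) (Fin 4) F) : e2 (A * B) = e2 (B * A) := by
  simp only [e2, mul_apply, Fin.sum_univ_four]; ring

variable [CharP F 2]

theorem B4_alt : (B4 F).IsAlt := fun v => by rw [B4_apply]; grind

theorem B4_wd {x y x' y' : Fin 4 → F} (h : B4 F x y = 0) (h' : B4 F x' y' = 0) :
    B4 F (wd x y) (wd x' y') = B4 F x x' * B4 F y y' + B4 F x y' * B4 F y x' := by
  simp only [B4_apply, wd] at *
  simp
  grind

theorem wd_wd {v u u' : Fin 4 → F} (h : B4 F v u = 0) (h' : B4 F v u' = 0) (i : Fin 4) :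
    wd (wd v u) (wd v u') i = B4 F u u' * v i ^ 2 := by
  simp only [B4_apply, wd] at *
  fin_cases i <;> simp <;> grind

theorem star_wd {A : Matrix (Fin 4) (Fin 4) F} (hA : Aᵀ * J4 F * A = J4 F) {v u : Fin 4 → F}
    (h : B4 F v u = 0) : star4 A *ᵥ wd v u = wd (A *ᵥ v) (A *ᵥ u) := by
  have e01 := row_entries (row_rel hA) 0 1
  have e02 := row_entries (row_rel hA) 0 2
  have e13 := row_entries (row_rel hA) 1 3
  have e23 := row_entries (row_rel hA) 2 3
  simp [J4] at e01 e02 e13 e23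
  rw [B4_apply] at h
  ext i
  fin_cases i <;> simp [wd, star4, pairOf, mulVec, dotProduct, Fin.sum_univ_four] <;> grind

theorem wd_single (p : Fin 4) : ∃ v u : Fin 4 → F, B4 F v u = 0 ∧ wd v u = Pi.single p 1 :=
  ⟨Pi.single (pairOf p).1 1, Pi.single (pairOf p).2 1, by
    fin_cases p <;> simp [B4_apply, pairOf], by
    ext i; fin_cases p <;> fin_cases i <;> simp [wd, pairOf]⟩

/-- The graph endomorphism. -/
noncomputable def σ : SpB (B4 F) →* ((Fin 4 → F) ≃ₗ[F] (Fin 4 → F)) :=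
  (LinearMap.GeneralLinearGroup.generalLinearEquiv F _).toMonoidHom.comp
    (MonoidHom.toHomUnits
      { toFun := fun g => Matrix.toLin' (star4 (mat g.1))
        map_one' := by
          rw [show mat (1 : SpB (B4 F)).1 = 1 from LinearMap.toMatrix'_id, star4_one]
          exact Matrix.toLin'_one
        map_mul' := fun g h => by
          rw [show mat (g * h).1 = mat g.1 * mat h.1 from LinearMap.toMatrix'_mul _ _,
            star4_mul (row_rel (mat_rel g.2)) (mat_rel h.2), Matrix.toLin'_mul]; rfl })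

theorem mat_σ (g : SpB (B4 F)) : mat (σ g) = star4 (mat g.1) :=
  LinearMap.toMatrix'_toLin' _

theorem σ_wd (g : SpB (B4 F)) {v u : Fin 4 → F} (h : B4 F v u = 0) :
    σ g (wd v u) = wd (g.1 v) (g.1 u) := by
  rw [← mat_mulVec, mat_σ, star_wd (mat_rel g.2) h, mat_mulVec, mat_mulVec]

theorem σ_mem (g : SpB (B4 F)) : σ g ∈ SpB (B4 F) := by
  have : (B4 F).comp (σ g).toLinearMap (σ g).toLinearMap = B4 F :=
    LinearMap.BilinForm.ext_basis (Pi.basisFun F _) fun i j => by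
      obtain ⟨v, u, h, e⟩ := wd_single (F := F) i
      obtain ⟨v', u', h', e'⟩ := wd_single (F := F) j
      have hg := mem_SpB.1 g.2
      simp only [Pi.basisFun_apply, ← e, ← e', LinearMap.BilinForm.comp_apply, LinearEquiv.coe_coe]
      rw [σ_wd g h, σ_wd g h', B4_wd (by rw [hg, h]) (by rw [hg, h']), B4_wd h h']
      simp only [hg]
  exact mem_SpB.2 fun u v => LinearMap.congr_fun₂ this u v

theorem σσ (g : SpB (B4 F)) (i j : Fin 4) : star4 (mat (σ g)) i j = mat g.1 i j ^ 2 := by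
  obtain ⟨u, u', h, h', h1⟩ : ∃ u u' : Fin 4 → F, B4 F (Pi.single j 1) u = 0 ∧
      B4 F (Pi.single j 1) u' = 0 ∧ B4 F u u' = 1 :=
    ⟨Pi.single (![1, 0, 0, 1] j) 1, Pi.single (![2, 3, 3, 2] j) 1, by
      fin_cases j <;> simp [B4_apply]⟩
  have hg := mem_SpB.1 g.2
  have e : wd (wd (Pi.single j 1) u) (wd (Pi.single j 1) u') = Pi.single j (1 : F) := by
    ext k; rw [wd_wd h h', h1, one_mul]; by_cases c : k = j <;> simp [c]
  have := congrFun (σ_wd ⟨_, σ_mem g⟩ (v := wd (Pi.single j 1) u) (u := wd (Pi.single j 1) u') (by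
    rw [B4_wd h h', h', B4_alt]; simp)) i
  rw [e, σ_wd g h, σ_wd g h', wd_wd (by rw [hg, h]) (by rw [hg, h']), hg, h1, ← mat_mulVec,
    mat_σ] at this
  simpa using this

theorem σ_injective : Function.Injective (σ (F := F)) := by
  refine (injective_iff_map_eq_one _).2 fun g hg => Subtype.ext (LinearEquiv.toLinearMap_injective
    (LinearMap.toMatrix'.injective (Matrix.ext fun i j => eq_of_sq_eq ?_)))
  have h := σσ g i j
  rw [hg, show mat (1 : (Fin 4 → F) ≃ₗ[F] _) = 1 from LinearMap.toMatrix'_id, star4_one] at h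
  rw [← h, show LinearMap.toMatrix' (1 : SpB (B4 F)).1.toLinearMap = 1 from LinearMap.toMatrix'_id]
  by_cases c : i = j <;> simp [one_apply, c]

theorem e2_eq {g : Matrix (Fin 4) (Fin 4) F} (hg : gᵀ * J4 F * g = J4 F) :
    e2 g = (star4 g).trace := by
  have c1 := col_entries hg 0 3
  have c2 := row_entries (row_rel hg) 1 2
  simp [J4] at c1 c2
  simp [trace, Fin.sum_univ_four, star4, pairOf, e2]
  grind

theorem e2_σ (g : SpB (B4 F)) : e2 (mat (σ g)) = LinearMap.trace F _ g.1.toLinearMap ^ 2 := by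
  rw [e2_eq (mat_rel (σ_mem g)), LinearMap.trace_eq_matrix_trace F (Pi.basisFun F _),
    LinearMap.toMatrix_eq_toMatrix']
  simp only [trace, diag_apply, σσ, Fin.sum_univ_four]
  grind

theorem cayley {g : Matrix (Fin 4) (Fin 4) F} (hg : gᵀ * J4 F * g = J4 F) :
    g * g * g * g + g.trace • (g * g * g) + e2 g • (g * g) + g.trace • g + 1 = 0 := by
  have hdet : g.det = 1 := eq_of_sq_eq (by
    have h1 := congrArg Matrix.det hg
    have hJ : (J4 F).det * (J4 F).det = 1 := by rw [← Matrix.det_mul, J4_sq, Matrix.det_one]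
    rw [Matrix.det_mul, Matrix.det_mul, Matrix.det_transpose] at h1
    linear_combination (J4 F).det * h1 - (g.det ^ 2 - 1) * hJ)
  have hadj : g.adjugate = J4 F * gᵀ * J4 F := by
    rw [← mul_one g.adjugate, ← mul_J4 hg, ← mul_assoc, adjugate_mul, hdet, one_smul, one_mul]
  have hch := cayley4 g
  rw [hdet, hadj, trace_mul_cycle, J4_sq, one_mul, trace_transpose, one_smul] at hch
  rw [← hch]
  match_scalars <;> grind

theorem e2_of_fix {g : (Fin 4 → F) ≃ₗ[F] (Fin 4 → F)} (hg : g ∈ SpB (B4 F)) {r : Fin 4 → F}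
    (r0 : r ≠ 0) (hr : g r = r) : e2 (mat g) = 0 := by
  have := congrArg (· *ᵥ r) (cayley (mat_rel hg))
  simp only [add_mulVec, smul_mulVec, ← mulVec_mulVec, mat_mulVec, hr, one_mulVec,
    zero_mulVec] at this
  refine (smul_eq_zero.1 ?_).resolve_right r0
  rw [← this]
  match_scalars; grind

omit [CharP F 2] in
theorem e2_mem {F₀ : Subfield F} {g : (Fin 4 → F) ≃ₗ[F] (Fin 4 → F)} (b : Basis (Fin 4) F _)
    (h : ∀ i j, LinearMap.toMatrix b b g.toLinearMap i j ∈ F₀) : e2 (mat g) ∈ F₀ := by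
  rw [mat, ← LinearMap.toMatrix_eq_toMatrix', ← basis_toMatrix_mul_linearMap_toMatrix_mul_basis_toMatrix
    _ b _ b, e2_comm, ← mul_assoc, Basis.toMatrix_mul_toMatrix_flip, one_mul, e2]
  repeat' first | exact h _ _ | apply add_mem | apply sub_mem | apply mul_mem

theorem σ_E {t : SpB (B4 F)} {a w : Fin 4 → F} (hw : B4 F w a = 0) (h : E (B4 F) t.1 a w 0)
    (z : Fin 4 → F) : σ t z = z + B4 F z (wd a w) • wd a w := by
  have : (σ t).toLinearMap = LinearMap.id + ((B4 F).flip (wd a w)).smulRight (wd a w) :=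
    (Pi.basisFun F _).ext fun p => by
      obtain ⟨x, y, h0, e⟩ := wd_single (F := F) p
      rw [Pi.basisFun_apply, ← e, LinearEquiv.coe_coe, σ_wd t h0, h, h]
      simp only [B4_apply] at hw h0
      ext i
      fin_cases i <;> simp [B4_apply, wd] <;> grind
  exact LinearMap.congr_fun this z

theorem a2_case [Finite F] {L : Subgroup ((Fin 4 → F) ≃ₗ[F] (Fin 4 → F))} [IsSimpleGroup L]
    (hc : ¬ IsMulCommutative L) (hL : L ≤ SpB (B4 F)) {s : F} (s0 : s ≠ 0) (s1 : s ≠ 1)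
    {t : (Fin 4 → F) ≃ₗ[F] (Fin 4 → F)} (ht : t ∈ L) (t1 : t ≠ 1) {a w : Fin 4 → F}
    (hw : B4 F w a = 0) (h : E (B4 F) t a w 0) :
    (∃ F₀ : Subfield F, F₀ ≠ ⊤ ∧ ∀ g ∈ L, LinearMap.trace F _ g.toLinearMap ∈ F₀) ∨
      SpB (B4 F) ≤ L := by
  set M := (L.subgroupOf (SpB (B4 F))).map σ
  let e : L ≃* M := (Subgroup.subgroupOfEquivOfLe hL).symm.trans
    (Subgroup.equivMapOfInjective _ _ σ_injective)
  haveI : IsSimpleGroup M := e.symm.isSimpleGroup
  have hM : M ≤ SpB (B4 F) := by rintro _ ⟨g, -, rfl⟩; exact σ_mem g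
  have hE := σ_E (t := ⟨t, hL ht⟩) hw h
  have hT : T (B4 F) M (wd a w) := T.mk' (fun e => t1 (congrArg Subtype.val
    (σ_injective (a₁ := ⟨t, hL ht⟩) (a₂ := 1) (LinearEquiv.ext fun z => by simp [hE, e]))))
    ⟨⟨t, hL ht⟩, ht, rfl⟩ hE
  have tr : ∀ F₀ : Subfield F, (∀ g ∈ M, e2 (mat g) ∈ F₀) →
      ∀ g ∈ L, LinearMap.trace F _ g.toLinearMap ∈ F₀ := fun F₀ H g hg =>
    mem_of_sq_mem (e2_σ ⟨g, hL hg⟩ ▸ H _ ⟨_, hg, rfl⟩)
  rcases ctx_or_fix B4_nd B4_alt hM hT with C | ⟨r, r0, hr⟩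
  · rcases tv_cases C (by simp) (gen_of_simple C hT) s0 s1 with ⟨F₀, h0, H⟩ | H | ⟨Q, hp, H⟩
    · obtain ⟨b, hb⟩ := exists_basis_of_mem C (by simp) hT H
      exact Or.inl ⟨F₀, h0, tr F₀ fun g hg => e2_mem b (hb g hg)⟩
    · haveI : Finite ((Fin 4 → F) ≃ₗ[F] (Fin 4 → F)) := Finite.of_injective _ DFunLike.coe_injective
      exact Or.inr (Subgroup.eq_of_le_of_card_ge hL
        ((Subgroup.card_le_of_le H).trans (Nat.card_congr e.toEquiv).ge)).ge
    · exact absurd H (not_le_O (fun c => hc ⟨⟨fun x y => e.injective (by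
        rw [map_mul, map_mul, c.1.1])⟩⟩) C (by simp) hT hp)
  · exact Or.inl ⟨_, fixF_one_ne_top s0 s1, tr _ fun g hg =>
      e2_of_fix (hM hg) r0 (hr g hg) ▸ zero_mem _⟩

end Cfsg.Lib.Class.Sp4E
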