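import Cfsg.Agent.Class.Sp4E.Small
import Cfsg.Agent.Class.SpOrder
import Cfsg.Agent.Chev.SuzukiMax

/-! Suzuki subgroups of `Sp₄(q)`, `q` even. -/

set_option autoImplicit false

namespace Cfsg.Lib.Class.Sp4E

open Polynomial Cfsg.Lib.Chev Subgroup

variable {K : Type*} [Field K] [Fintype K] {τ : Tw K} {G : Type*} [Group G] {M : SzModel τ G}

theorem isConj_pow_card {g : G} (hg : M.Fpf g) : IsConj g (g ^ Fintype.card K) := by
  haveI := M.finite
  obtain ⟨u, hU, -⟩ := SzModel.exists_generator hg.isCyclic_centralizer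
  have hgU : g ∈ centralizer {g} := mem_centralizer_singleton_iff.2 rfl
  have huU : u ∈ centralizer {g} := hU ▸ mem_zpowers u
  have u1 : u ≠ 1 := fun e => hg.ne_one (by simpa [hU, e] using hgU)
  obtain ⟨p, hp, hpg⟩ := Nat.exists_prime_and_dvd (_root_.mt orderOf_eq_one_iff.1 hg.ne_one)
  have hy : orderOf (g ^ (orderOf g / p)) = p := orderOf_pow_orderOf_div (orderOf_pos g).ne' hpg
  have hyU := pow_mem hgU (orderOf g / p)
  generalize g ^ (orderOf g / p) = y at hy hyU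
  have y1 : y ≠ 1 := fun e => hp.ne_one (by rw [← hy, e, orderOf_one])
  have hpq := hpg.trans hg.orderOf_dvd
  obtain ⟨hirr, hdeg⟩ := minpoly_irreducible_of_pow hp
    (fun e => (SzModel.odd_sq_add_one (τ := τ)).not_two_dvd_nat (e ▸ hpq)) hpq (A := M.ρ y)
    (by rw [← map_pow, ← hy, pow_orderOf_eq_one, map_one]) fun h => y1 (M.ρ_inj (by simpa using h))
  haveI := Fact.mk hirr
  obtain ⟨φ, hφ, hs⟩ := exists_field_centralizer hirr hdeg
  have hc : ∀ x ∈ centralizer {g}, ∃ k, φ k = M.ρ x := fun x hx => hs _ (by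
    rw [← map_mul, ← map_mul, (hg.commute hx hyU).eq])
  choose! ψ hψ using hc
  have h0 : minpoly K (M.ρ u) ≠ 0 := minpoly.ne_zero (Algebra.IsIntegral.isIntegral _)
  have hle := (ncard_rootSet_le (minpoly K (M.ρ u)) (AdjoinRoot (minpoly K (M.ρ y)))).trans
    (natDegree_le_of_dvd (Matrix.minpoly_dvd_charpoly _) (Matrix.charpoly_monic _).ne_zero)
  rw [Matrix.charpoly_natDegree_eq_dim, Fintype.card_fin, ← Nat.card_coe_set_eq] at hle
  set N := normalizer (centralizer {g} : Set G)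
  have hN : ∀ n : N, n.1 * u * n.1⁻¹ ∈ centralizer {g} := fun n => (mem_normalizer_iff.1 n.2 u).1 huU
  have hr : ∀ n : N, ψ (n.1 * u * n.1⁻¹) ∈ (minpoly K (M.ρ u)).rootSet _ := fun n => by
    rw [mem_rootSet_of_ne h0]
    apply hφ
    let e : Matrix (Fin 4) (Fin 4) K ≃ₐ[K] _ :=
      MulSemiringAction.toAlgEquiv K _ (ConjAct.toConjAct (M.ρ.toHomUnits n.1))
    rw [← aeval_algHom_apply, hψ _ (hN n), map_zero,
      show M.ρ (n.1 * u * n.1⁻¹) = e (M.ρ u) by rw [map_mul, map_mul]; rfl, aeval_algEquiv,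
      AlgHom.comp_apply, minpoly.aeval, map_zero]
  have hq : Nat.card (N ⧸ (centralizer {g}).subgroupOf N) = 4 := by
    have h1 := ((centralizer {g}).subgroupOf N).card_mul_index
    rw [Nat.card_congr (subgroupOfEquivOfLe le_normalizer).toEquiv, hg.card_normalizer,
      mul_comm 4] at h1
    exact Nat.eq_of_mul_eq_mul_left Nat.card_pos h1
  have inj : ∀ x ∈ centralizer {g}, ∀ x' ∈ centralizer {g}, ψ x = ψ x' → x = x' :=
    fun x hx x' hx' h => M.ρ_inj (by rw [← hψ x hx, h, hψ x' hx'])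
  haveI : Finite ((minpoly K (M.ρ u)).rootSet (AdjoinRoot (minpoly K (M.ρ y)))) :=
    rootSet_finite _ _
  obtain ⟨n, hn⟩ := (Function.Injective.bijective_of_nat_card_le
    (f := fun q : N ⧸ (centralizer {g}).subgroupOf N => (⟨_, hr q.out⟩ : (minpoly K (M.ρ u)).rootSet _))
    (fun q q' h => by
      have h1 := inj _ (hN _) _ (hN _) (congrArg Subtype.val h)
      rw [← q.out_eq, ← q'.out_eq]
      refine QuotientGroup.eq.2 (mem_subgroupOf.2 ((hg.centralizer_eq huU u1).le ?_))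
      rw [mem_centralizer_singleton_iff, Subgroup.coe_mul, Subgroup.coe_inv, mul_assoc,
        mul_inv_eq_iff_eq_mul.1 h1.symm]
      group) (hle.trans hq.ge)).2 ⟨ψ u ^ Fintype.card K, by
        have h1 := hr 1
        rw [mem_rootSet_of_ne h0] at h1 ⊢
        refine (aeval_algHom_apply (FiniteField.frobeniusAlgHom K _) _ _).trans ?_
        simpa using h1⟩
  have h1 : n.out.1 * u * n.out.1⁻¹ = u ^ Fintype.card K := M.ρ_inj (by
    rw [← hψ _ (hN _), map_pow, ← hψ u huU, ← map_pow]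
    exact congrArg (φ ·.1) hn)
  obtain ⟨k, rfl⟩ := mem_zpowers_iff.1 (hU ▸ hgU)
  exact isConj_iff.2 ⟨n.out.1, by rw [← conj_zpow, h1, ← zpow_natCast, zpow_comm, zpow_natCast]⟩

variable {F : Type*} [Field F] [CharP F 2]

theorem sz_trace (M : SzModel τ G) {n : ℕ} (hK : Fintype.card K = 2 ^ n) (ρ : G →* SpB (B4 F))
    (g : G) : (mt (ρ g)).trace ∈ fixF F n := by
  rcases M.trichotomy g with ⟨p, h⟩ | ⟨a, b, hab, h⟩ | h
  · rw [tr_of_four (by rw [← map_pow, (M.mem_Pat.1 h).2, map_one])]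
    exact zero_mem _
  · rw [mem_fixF, ← tr_pow, ← map_pow, ← hK, ← Nat.sub_add_cancel Fintype.card_pos, pow_succ,
      orderOf_dvd_iff_pow_eq_one.1 (M.orderOf_dvd_of_mem_Hat hab h), one_mul]
  · rw [mem_fixF, ← tr_pow, ← map_pow, ← hK, ← tr_conj (ρ.map_isConj (isConj_pow_card h))]

theorem sz_card [Fintype F] (M : SzModel τ G) {m : ℕ} (hK : Fintype.card K = 2 ^ (2 * m + 1))
    (ρ : G →* SpB (B4 F)) (hρ : Function.Injective ρ) (h : fixF F (2 * m + 1) = ⊤) :
    Fintype.card F = 2 ^ (2 * m + 1) := by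
  obtain ⟨⟨d, d0⟩, -, hF⟩ := FiniteField.card F 2
  have h1 : 2 ^ d - 1 ∣ 2 ^ (2 * m + 1) - 1 := hF ▸ (FiniteField.forall_pow_eq_one_iff F _).1 fun x => by
    have : (x : F) ^ 2 ^ (2 * m + 1) = x := mem_fixF.1 (h.ge (Subfield.mem_top _))
    rw [← Nat.sub_add_cancel Nat.one_le_two_pow, pow_succ, mul_eq_right₀ x.ne_zero] at this
    exact Units.ext (by simpa using this)
  have h2 : d ∣ 2 * m + 1 := by
    have := Nat.gcd_eq_left h1
    rw [Nat.pow_sub_one_gcd_pow_sub_one] at this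
    have h3 := Nat.one_le_two_pow (n := d)
    have h4 := Nat.one_le_two_pow (n := d.gcd (2 * m + 1))
    exact Nat.gcd_eq_left_iff_dvd.1 (Nat.pow_right_injective le_rfl (by simp only; omega))
  have h3 := card_dvd_of_injective ρ hρ
  rw [M.card_G, card_SpB B4_nd B4_alt (m := 2) (by simp), spOrd, hK, hF, mul_assoc] at h3
  have h4 := (Nat.Coprime.pow_left 2 (Nat.Coprime.pow_left _ (Nat.coprime_two_left.2
    (Finset.prod_induction _ Odd (fun _ _ => Odd.mul) odd_one fun i _ => Nat.Even.sub_odd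
      (Nat.one_le_pow _ _ (by positivity)) (by simp [Nat.even_pow, d0.ne']) odd_one)))).dvd_of_dvd_mul_right
    (dvd_of_mul_right_dvd h3)
  rw [← pow_mul, ← pow_mul, Nat.pow_dvd_pow_iff_le_right one_lt_two] at h4
  obtain ⟨k, hk⟩ := h2
  obtain rfl : k = 1 := by
    have : k ≤ 2 := Nat.le_of_mul_le_mul_left (by simp only [PNat.mk_coe] at h4; nlinarith) d0
    interval_cases k <;> omega
  rw [hF, hk, mul_one]
  rfl

end Cfsg.Lib.Class.Sp4E
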